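import Groth.Agent.Pi1.H391.Stmts2
import Mathlib.RingTheory.Spectrum.Prime.Chevalley
import Mathlib.RingTheory.QuasiFinite.Basic
import Mathlib.RingTheory.Etale.Basic
import Mathlib.RingTheory.Smooth.Flat
import Mathlib.RingTheory.LocalRing.ResidueField.Instances
import Mathlib.FieldTheory.IsAlgClosed.Basic

/-!
# (F2) of S3689: sections of a finite etale algebra through the points of one geometric fibre suffice
-/

set_option autoImplicit false

universe u

open TensorProduct IsLocalRing PrimeSpectrum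

namespace Groth.Agent.Pi1.H139.OneFibre

variable {A C : Type u} [CommRing A] [CommRing C] [Algebra A C]

/-- the image of a section of an etale morphism is open -/
theorem isOpen_zeroLocus_ker [Algebra.Etale A C] (s : C →ₐ[A] A) :
    IsOpen (zeroLocus ((RingHom.ker s.toRingHom : Ideal C) : Set C)) := by
  let _ : Algebra C A := s.toRingHom.toAlgebra
  have : IsScalarTower A C A := IsScalarTower.of_algebraMap_eq (fun a => (s.commutes a).symm)
  have : Algebra.Etale C A := Algebra.Etale.of_restrictScalars A C A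
  have : Module.Flat C A := inferInstance
  have hs : Function.Surjective (algebraMap C A) := fun a => ⟨algebraMap A C a, s.commutes a⟩
  have h := (isOpenMap_comap_of_hasGoingDown_of_finitePresentation (R := C) (S := A)).isOpen_range
  rwa [range_comap_of_surjective _ _ hs] at h

/-- a prime over the kernel of a geometric point comes from a geometric point -/
theorem exists_hom [Algebra.IsIntegral A C] {Ω : Type u} [Field Ω] [IsAlgClosed Ω] (a₀ : A →+* Ω)
    (q : PrimeSpectrum C) (hq : q.asIdeal.comap (algebraMap A C) = RingHom.ker a₀) :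
    ∃ c₀ : C →+* Ω, c₀.comp (algebraMap A C) = a₀ ∧ RingHom.ker c₀ = q.asIdeal := by
  have : (RingHom.ker a₀).IsPrime := RingHom.ker_isPrime _
  have : q.asIdeal.LiesOver (RingHom.ker a₀) := ⟨hq.symm⟩
  let _ : Algebra (Localization.AtPrime (RingHom.ker a₀)) (Localization.AtPrime q.asIdeal) :=
    Localization.AtPrime.algebraOfLiesOver _ _
  have : Localization.AtPrime.IsLiesOverAlgebra (RingHom.ker a₀) q.asIdeal := ⟨rfl⟩
  let _ : Algebra (RingHom.ker a₀).ResidueField Ω :=
    (Ideal.ResidueField.lift (RingHom.ker a₀) a₀ le_rfl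
      (fun x hx => (isUnit_iff_ne_zero.mpr (fun h => hx (by simpa [RingHom.mem_ker] using h))))).toAlgebra
  let l : q.asIdeal.ResidueField →ₐ[(RingHom.ker a₀).ResidueField] Ω := IsAlgClosed.lift
  refine ⟨l.toRingHom.comp (algebraMap C q.asIdeal.ResidueField), ?_, ?_⟩
  · ext a
    have h1 : algebraMap C q.asIdeal.ResidueField (algebraMap A C a) =
        algebraMap (RingHom.ker a₀).ResidueField q.asIdeal.ResidueField
          (algebraMap A (RingHom.ker a₀).ResidueField a) := by
      rw [← IsScalarTower.algebraMap_apply A C q.asIdeal.ResidueField,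
        ← IsScalarTower.algebraMap_apply A (RingHom.ker a₀).ResidueField q.asIdeal.ResidueField]
    show l (algebraMap C q.asIdeal.ResidueField (algebraMap A C a)) = a₀ a
    rw [h1, l.commutes]
    exact Ideal.ResidueField.lift_algebraMap _ _ _ _ _
  · ext x
    rw [RingHom.mem_ker]
    show l (algebraMap C q.asIdeal.ResidueField x) = 0 ↔ _
    rw [map_eq_zero_iff l (RingHom.injective l.toRingHom)]
    exact Ideal.algebraMap_residueField_eq_zero

theorem main : Groth.Agent.Pi1.H391.Stmts2.OneFibre.{u} := by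
  intro A C _ _ _ _ _ _ Ω _ _ a₀ h₀ Ω' _ c a hca
  -- the finite fibre over the base point
  let p₀ : PrimeSpectrum A := ⟨RingHom.ker a₀, RingHom.ker_isPrime _⟩
  have hfin : (PrimeSpectrum.comap (algebraMap A C) ⁻¹' {p₀}).Finite :=
    Algebra.QuasiFinite.finite_comap_preimage_singleton p₀
  have hsec : ∀ q : PrimeSpectrum C, PrimeSpectrum.comap (algebraMap A C) q = p₀ →
      ∃ Z : Set (PrimeSpectrum C), IsClopen Z ∧ q ∈ Z ∧ ∃ s : C →ₐ[A] A,
        Z = zeroLocus ((RingHom.ker s.toRingHom : Ideal C) : Set C) := by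
    intro q hq
    obtain ⟨c₀, hc₀, hk⟩ := exists_hom a₀ q (congrArg PrimeSpectrum.asIdeal hq)
    obtain ⟨s, hs⟩ := h₀ c₀ hc₀
    refine ⟨_, ⟨isClosed_zeroLocus _, isOpen_zeroLocus_ker s⟩, ?_, s, rfl⟩
    rw [mem_zeroLocus]
    intro x hx
    have hx' : s.toRingHom x = 0 := hx
    show x ∈ q.asIdeal
    rw [← hk, RingHom.mem_ker, ← hs, RingHom.comp_apply, hx', map_zero]
  choose! Z hZ hqZ hs using hsec
  let W : Set (PrimeSpectrum C) := ⋃ q ∈ (PrimeSpectrum.comap (algebraMap A C) ⁻¹' {p₀}), Z q
  have hWo : IsOpen W := isOpen_biUnion fun q hq => (hZ q hq).isOpen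
  have hWc : IsClosed W := hfin.isClosed_biUnion fun q hq => (hZ q hq).isClosed
  have hop : IsOpenMap (PrimeSpectrum.comap (algebraMap A C)) :=
    isOpenMap_comap_of_hasGoingDown_of_finitePresentation
  have hcl : IsClosedMap (PrimeSpectrum.comap (algebraMap A C)) :=
    isClosedMap_comap_of_isIntegral _ (fun x => Algebra.IsIntegral.isIntegral (R := A) x)
  have hclopen : IsClopen (PrimeSpectrum.comap (algebraMap A C) '' Wᶜ) :=
    ⟨hcl _ hWo.isClosed_compl, hop _ hWc.isOpen_compl⟩
  have hempty : PrimeSpectrum.comap (algebraMap A C) '' Wᶜ = ∅ := by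
    rcases _root_.isClopen_iff.mp hclopen with h | h
    · exact h
    · exfalso
      obtain ⟨q, hq, hqp⟩ : p₀ ∈ PrimeSpectrum.comap (algebraMap A C) '' Wᶜ := h ▸ Set.mem_univ _
      exact hq (Set.mem_biUnion (show q ∈ (PrimeSpectrum.comap (algebraMap A C) ⁻¹' {p₀}) from hqp)
        (hqZ q hqp))
  have hall : ∀ q : PrimeSpectrum C, q ∈ W := by
    intro q
    by_contra hq
    have : PrimeSpectrum.comap (algebraMap A C) q ∈ PrimeSpectrum.comap (algebraMap A C) '' Wᶜ :=
      ⟨q, hq, rfl⟩
    rw [hempty] at this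
    exact this
  obtain ⟨q, hqp, hq⟩ := Set.mem_iUnion₂.mp (hall ⟨RingHom.ker c, RingHom.ker_isPrime _⟩)
  obtain ⟨s, hs'⟩ := hs q hqp
  rw [hs'] at hq
  refine ⟨s, ?_⟩
  ext x
  have h1 : x - algebraMap A C (s x) ∈ RingHom.ker s.toRingHom := by
    rw [RingHom.mem_ker]
    show s (x - algebraMap A C (s x)) = 0
    rw [map_sub, s.commutes]
    exact sub_self _
  have h2 : c (x - algebraMap A C (s x)) = 0 := hq h1
  rw [map_sub, sub_eq_zero] at h2
  rw [h2]
  have h3 := RingHom.congr_fun hca (s x)
  simp only [RingHom.comp_apply] at h3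
  exact h3.symm

end Groth.Agent.Pi1.H139.OneFibre
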